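import Mathlib

/-!
# Normalizers of subgroups of prime order (helper243, for S4816)

* `pow_w` : `|N(⟨y⟩)| = w |C(y)|`, `g y^i g⁻¹ = y^j`: `j^w ≡ i^w mod p`;
* `exists_w` : `|C(y)| = p k`, `p ∥ |Q|`: `|N(⟨y⟩)| = w p k`, `w ∣ p - 1`, `|Q| = w p k n`, `n ≡ 1 mod p`.
-/

set_option autoImplicit false
set_option linter.unusedSectionVars false

namespace Cfsg.Agent.H243.RIM

open Subgroup

section

variable {Q : Type*} [Group Q] [Finite Q] {p : ℕ} [hp : Fact p.Prime] {y : Q}

theorem centralizer_zpowers (y : Q) : centralizer ((zpowers y : Subgroup Q) : Set Q) = centralizer ({y} : Set Q) := by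
  ext g
  rw [mem_centralizer_iff, mem_centralizer_singleton_iff]
  constructor
  · intro h
    exact (h y (mem_zpowers y)).symm
  · rintro h _ ⟨k, rfl⟩
    exact (Commute.zpow_right (show Commute g y from h) k).eq.symm

/-- an element of `⟨y⟩` prime to `p` generates it -/
theorem zpowers_pow (hy : orderOf y = p) {i : ℕ} (hi : ¬ p ∣ i) : zpowers (y ^ i) = zpowers y := by
  apply eq_of_le_of_card_ge
  · rw [zpowers_le]
    exact pow_mem (mem_zpowers y) i
  · rw [Nat.card_zpowers, Nat.card_zpowers, hy]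
    have h1 : orderOf (y ^ i) = p := by
      rw [Nat.Coprime.orderOf_pow, hy]
      rw [hy]
      exact (Nat.Prime.coprime_iff_not_dvd hp.out).2 hi
    rw [h1]

theorem mem_norm (hy : orderOf y = p) {g : Q} {i j : ℕ} (hi : ¬ p ∣ i) (h : g * y ^ i * g⁻¹ = y ^ j) :
    g ∈ normalizer ((zpowers y : Subgroup Q) : Set Q) := by
  have hle : ∀ n ∈ zpowers y, g * n * g⁻¹ ∈ zpowers y := by
    intro n hn
    rw [← zpowers_pow hy hi] at hn
    obtain ⟨k, rfl⟩ := hn
    show g * (y ^ i) ^ k * g⁻¹ ∈ zpowers y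
    rw [← conj_zpow, h]
    exact zpow_mem (pow_mem (mem_zpowers y) j) k
  exact mem_normalizer_fintype hle

theorem conj_pow_pow {g : Q} {i j : ℕ} (h : g * y ^ i * g⁻¹ = y ^ j) (m : ℕ) :
    g ^ m * y ^ (i ^ m) * (g ^ m)⁻¹ = y ^ (j ^ m) := by
  induction m with
  | zero => simp
  | succ m ih =>
    calc g ^ (m + 1) * y ^ (i ^ (m + 1)) * (g ^ (m + 1))⁻¹
        = g * (g ^ m * (y ^ (i ^ m)) ^ i * (g ^ m)⁻¹) * g⁻¹ := by
          rw [pow_succ' g, pow_succ i, pow_mul]
          group
      _ = g * (y ^ (j ^ m)) ^ i * g⁻¹ := by rw [← conj_pow, ih]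
      _ = (g * y ^ i * g⁻¹) ^ (j ^ m) := by rw [conj_pow, ← pow_mul, ← pow_mul, mul_comm i]
      _ = y ^ (j ^ (m + 1)) := by rw [h, ← pow_mul, pow_succ']

/-- **Fusion in a subgroup of prime order.** -/
theorem pow_w {w : ℕ} (hy : orderOf y = p)
    (hN : Nat.card (normalizer ((zpowers y : Subgroup Q) : Set Q)) = w * Nat.card (centralizer ({y} : Set Q)))
    {g : Q} {i j : ℕ} (hi : ¬ p ∣ i) (h : g * y ^ i * g⁻¹ = y ^ j) : j ^ w % p = i ^ w % p := by
  have hg := mem_norm hy hi h
  set N := normalizer ((zpowers y : Subgroup Q) : Set Q) with hNd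
  have hCN : centralizer ((zpowers y : Subgroup Q) : Set Q) ≤ N := centralizer_le_normalizer _
  have hn : ((centralizer ((zpowers y : Subgroup Q) : Set Q)).subgroupOf N).Normal := by
    rw [hNd, ← normalizerMonoidHom_ker]
    infer_instance
  have hidx : ((centralizer ((zpowers y : Subgroup Q) : Set Q)).subgroupOf N).index = w := by
    have h1 := ((centralizer ((zpowers y : Subgroup Q) : Set Q)).subgroupOf N).card_mul_index
    have hcc : Nat.card (centralizer ((zpowers y : Subgroup Q) : Set Q)) = Nat.card (centralizer ({y} : Set Q)) := by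
      rw [centralizer_zpowers]
    rw [Nat.card_congr (subgroupOfEquivOfLe hCN).toEquiv, hN, ← hcc, mul_comm w] at h1
    exact Nat.eq_of_mul_eq_mul_left Nat.card_pos h1
  have h1 := Subgroup.pow_index_mem ((centralizer ((zpowers y : Subgroup Q) : Set Q)).subgroupOf N) (⟨g, hg⟩ : N)
  rw [hidx, mem_subgroupOf, centralizer_zpowers] at h1
  have h2 : g ^ w ∈ centralizer ({y} : Set Q) := h1
  rw [mem_centralizer_singleton_iff] at h2
  have h3 := conj_pow_pow h w
  have h4 : g ^ w * y ^ (i ^ w) * (g ^ w)⁻¹ = y ^ (i ^ w) := by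
    rw [(Commute.pow_right (show Commute (g ^ w) y from h2) (i ^ w)).eq, mul_inv_cancel_right]
  rw [h4, pow_eq_pow_iff_modEq, hy] at h3
  exact h3.symm

/-- **The order of the normalizer.** -/
theorem exists_w {n k : ℕ} (hn : Nat.card Q = n) (h2 : ¬ p ^ 2 ∣ n) (hy : orderOf y = p)
    (hC : Nat.card (centralizer ({y} : Set Q)) = p * k) :
    ∃ w m : ℕ, w ∣ p - 1 ∧ Nat.card (normalizer ((zpowers y : Subgroup Q) : Set Q)) = w * (p * k) ∧
      n = m * (w * (p * k)) ∧ m % p = 1 := by
  have hpp : p.Prime := hp.out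
  set N := normalizer ((zpowers y : Subgroup Q) : Set Q) with hNd
  have hCN : centralizer ((zpowers y : Subgroup Q) : Set Q) ≤ N := centralizer_le_normalizer _
  have h1 := ((centralizer ((zpowers y : Subgroup Q) : Set Q)).subgroupOf N).card_mul_index
  have hcc : Nat.card (centralizer ((zpowers y : Subgroup Q) : Set Q)) = p * k := by
    rw [centralizer_zpowers, hC]
  rw [Nat.card_congr (subgroupOfEquivOfLe hCN).toEquiv, hcc] at h1
  set w := ((centralizer ((zpowers y : Subgroup Q) : Set Q)).subgroupOf N).index with hw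
  -- `w ∣ p - 1`
  have hwp : w ∣ p - 1 := by
    have h3 : Nat.card (MulAut (zpowers y)) = p - 1 := by
      rw [IsCyclic.card_mulAut, Nat.card_zpowers, hy, Nat.totient_prime hpp]
    have h4 := Subgroup.index_ker (normalizerMonoidHom (zpowers y))
    rw [normalizerMonoidHom_ker] at h4
    rw [hw, hNd, h4, ← h3]
    exact card_subgroup_dvd_card _
  -- Sylow
  have hzp : IsPGroup p (zpowers y) := IsPGroup.of_card (n := 1) (by rw [Nat.card_zpowers, hy, pow_one])
  obtain ⟨P, hPle⟩ := hzp.exists_le_sylow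
  have hPz : (P : Subgroup Q) = zpowers y := by
    symm
    refine eq_of_le_of_card_ge hPle ?_
    rw [Nat.card_zpowers, hy]
    obtain ⟨a, ha⟩ := (IsPGroup.iff_card).1 P.2
    have h3 : Nat.card P ∣ Nat.card Q := card_subgroup_dvd_card _
    have h4 : a < 2 := by
      by_contra h5
      push Not at h5
      exact h2 (hn ▸ (pow_dvd_pow p h5).trans (ha ▸ h3))
    have h5 : Nat.card (P : Subgroup Q) = p ^ a := ha
    rw [h5]
    calc p ^ a ≤ p ^ 1 := Nat.pow_le_pow_right hpp.pos (by omega)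
      _ = p := pow_one p
  have h5 : Nat.card (Sylow p Q) = N.index := by
    have h5 := P.card_eq_index_normalizer
    have e : normalizer ((P : Subgroup Q) : Set Q) = N := by rw [hPz]
    rw [← e]
    exact h5
  have h6 := card_sylow_modEq_one p Q
  rw [h5] at h6
  refine ⟨w, N.index, hwp, ?_, ?_, ?_⟩
  · rw [← h1, mul_comm]
  · have h7 := N.card_mul_index
    rw [hn] at h7
    rw [← h7, ← h1]
    ring
  · have h8 : N.index % p = 1 % p := h6
    rw [h8, Nat.mod_eq_of_lt hpp.one_lt]

end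

end Cfsg.Agent.H243.RIM
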