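import Cfsg.Agent.H243.RIM.Cent

/-!
# Classes of elements of prime order (helper243, for S4816)
-/

set_option autoImplicit false
set_option linter.unusedSectionVars false

namespace Cfsg.Agent.H243.RIM

open Subgroup

variable {Q : Type*} [Group Q] [Finite Q]

theorem orderOf_of_conj {a b : Q} (h : IsConj a b) : orderOf a = orderOf b := by
  obtain ⟨c, rfl⟩ := isConj_iff.1 h
  exact (MulEquiv.orderOf_eq (MulAut.conj c) a).symm

/-- classes of elements of different orders -/
theorem card_biUnion (I : Finset ℕ) (Fn : ℕ → Finset (ConjClasses Q)) [DecidableEq (ConjClasses Q)]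
    (h : ∀ n ∈ I, ∀ C ∈ Fn n, ∃ g : Q, ConjClasses.mk g = C ∧ orderOf g = n) :
    (I.biUnion Fn).card = ∑ n ∈ I, (Fn n).card := by
  refine Finset.card_biUnion fun i hi j hj hij => ?_
  rw [Function.onFun, Finset.disjoint_left]
  intro C h1 h2
  obtain ⟨a, rfl, ha⟩ := h i hi C h1
  obtain ⟨b, hb, hb'⟩ := h j hj _ h2
  have h3 : IsConj b a := ConjClasses.mk_eq_mk_iff_isConj.1 hb
  exact hij (by rw [← ha, ← hb', orderOf_of_conj h3])

/-- the classes of the powers of an element of prime order -/
theorem card_image_pow {p : ℕ} [hp : Fact p.Prime] [DecidableEq (ConjClasses Q)] {y : Q} (hy : orderOf y = p) {w : ℕ}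
    (hN : Nat.card (normalizer ((zpowers y : Subgroup Q) : Set Q)) = w * Nat.card (centralizer ({y} : Set Q)))
    (J : Finset ℕ) (h1 : ∀ i ∈ J, ¬ p ∣ i) (h2 : ∀ i ∈ J, ∀ j ∈ J, j ^ w % p = i ^ w % p → i = j) :
    (J.image fun i => ConjClasses.mk (y ^ i)).card = J.card ∧
      ∀ C ∈ J.image (fun i => ConjClasses.mk (y ^ i)), ∃ g : Q, ConjClasses.mk g = C ∧ orderOf g = p := by
  constructor
  · refine Finset.card_image_of_injOn fun i hi j hj hij => ?_
    have h3 : IsConj (y ^ i) (y ^ j) := ConjClasses.mk_eq_mk_iff_isConj.1 hij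
    obtain ⟨g, hg⟩ := isConj_iff.1 h3
    exact h2 i hi j hj (pow_w hy hN (h1 i hi) hg)
  · intro C hC
    obtain ⟨i, hi, rfl⟩ := Finset.mem_image.1 hC
    refine ⟨_, rfl, ?_⟩
    rw [Nat.Coprime.orderOf_pow, hy]
    rw [hy]
    exact (Nat.Prime.coprime_iff_not_dvd hp.out).2 (h1 i hi)

/-- **Self-centralizing elements of prime order**: no element of order `p q`. -/
theorem card_centralizer {p : ℕ} [hp : Fact p.Prime] {y : Q} (hy : orderOf y = p) (h2 : ¬ p ^ 2 ∣ Nat.card Q)
    (hno : ∀ g : Q, ∀ q : ℕ, q.Prime → q ≠ p → orderOf g ≠ p * q) :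
    Nat.card (centralizer ({y} : Set Q)) = p := by
  have hpp : p.Prime := hp.out
  set C := centralizer ({y} : Set Q) with hC
  have hyC : y ∈ C := by
    rw [hC, mem_centralizer_singleton_iff]
  have hpg : IsPGroup p C := by
    have h3 : ∀ q : ℕ, q.Prime → q ∣ Nat.card C → q = p := by
      intro q hq hqd
      by_contra hne
      have : Fact q.Prime := ⟨hq⟩
      obtain ⟨c, hc⟩ := exists_prime_orderOf_dvd_card' q hqd
      have hc' : orderOf (c : Q) = q := by rw [Subgroup.orderOf_coe]; exact hc
      have hcomm : Commute y (c : Q) := by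
        have h9 : (c : Q) ∈ centralizer ({y} : Set Q) := c.2
        rw [mem_centralizer_singleton_iff] at h9
        exact h9.symm
      have h4 : orderOf (y * (c : Q)) = p * q := by
        rw [hcomm.orderOf_mul_eq_mul_orderOf_of_coprime, hy, hc']
        rw [hy, hc']
        exact (Nat.coprime_primes hpp hq).2 (Ne.symm hne)
      exact hno _ q hq hne h4
    have h5 : Nat.card C ≠ 0 := Nat.card_pos.ne'
    have h6 : Nat.card C = p ^ (Nat.card C).factorization p := by
      apply Nat.eq_of_factorization_eq h5 (pow_ne_zero _ hpp.ne_zero)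
      intro q
      by_cases hq : q.Prime
      · by_cases hqd : q ∣ Nat.card C
        · rw [h3 q hq hqd, hpp.factorization_pow, Finsupp.single_eq_same]
        · have hqp : q ≠ p := by
            rintro rfl
            apply hqd
            rw [← hy]
            have h7 := _root_.orderOf_dvd_natCard (⟨y, hyC⟩ : C)
            rwa [← Subgroup.orderOf_coe] at h7
          rw [Nat.factorization_eq_zero_of_not_dvd hqd, hpp.factorization_pow, Finsupp.single_eq_of_ne hqp]
      · rw [Nat.factorization_eq_zero_of_not_prime _ hq, Nat.factorization_eq_zero_of_not_prime _ hq]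
    exact IsPGroup.of_card h6
  obtain ⟨a, ha⟩ := (IsPGroup.iff_card).1 hpg
  have h3 : p ∣ Nat.card C := by
    rw [← hy]
    have h7 := _root_.orderOf_dvd_natCard (⟨y, hyC⟩ : C)
    rwa [← Subgroup.orderOf_coe] at h7
  have h4 : Nat.card C ∣ Nat.card Q := card_subgroup_dvd_card _
  rcases Nat.lt_or_ge a 2 with h5 | h5
  · interval_cases a
    · rw [ha, pow_zero, Nat.dvd_one] at h3
      exact absurd h3 hpp.one_lt.ne'
    · rw [ha, pow_one]
  · exact absurd ((pow_dvd_pow p h5).trans (ha ▸ h4)) h2

end Cfsg.Agent.H243.RIM
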