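import Cfsg.Agent.H849.RIM.DzCount

/-!
# Characters of defect zero over a central character: general count (helper243, for S4816)

* `card_lies_ge` : a family of good elements, pairwise not conjugate modulo `Z`;
* `exists_dz_card` : `p ∥ |G|`, enough characters over `c`: one of defect zero (the proof is helper849's
  `exists_dz_quot`, for elements of `G`).
-/

set_option autoImplicit false
set_option linter.unusedSectionVars false

namespace Cfsg.Agent.H243.RIM

open Cfsg Subgroup Finset
open Cfsg.Agent.Characters.Core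
open Cfsg.Agent.SmallSimple.ThetaSetup Cfsg.Agent.SmallSimple.ThetaOrtho Cfsg.Agent.SmallSimple.ThetaCount
open Cfsg.Agent.SmallSimple.TheoremC Cfsg.Agent.SmallSimple.TheoremCCor
open Cfsg.Agent.SmallSimple.SingularCount
open Cfsg.Agent.H622.Over
open Cfsg.Agent.H849.RIM
open scoped ComplexConjugate

universe u

variable {G : Type u} [Group G] [Finite G]

/-- **Lower bound for the number of characters over `c`.** -/
theorem card_lies_ge {Z : Subgroup G} [Z.Normal] (hZ : Z ≤ center G) (c : Z →* ℂˣ) {n : ℕ} (g : Fin n → G)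
    (hg : ∀ i, Good Z c (g i)) (hne : ∀ i j, i ≠ j → ∀ x : G, ∀ z ∈ Z, x * g i * x⁻¹ ≠ g j * z) :
    n ≤ Nat.card {χ : IrrCharacter G // Lies Z c (χ : G → ℂ)} := by
  rw [card_over hZ c, card_good hZ c]
  have hfin : Finite (ConjClasses (G ⧸ Z)) := Finite.of_surjective _ (ConjClasses.mk_surjective (α := G ⧸ Z))
  have h1 : Function.Injective (fun i : Fin n => (⟨ConjClasses.mk (g i : G ⧸ Z), g i, rfl, hg i⟩ :
      {C : ConjClasses (G ⧸ Z) // ∃ g : G, ConjClasses.mk (g : G ⧸ Z) = C ∧ Good Z c g})) := by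
    intro i j hij
    by_contra hne'
    have h2 := congrArg Subtype.val hij
    have h3 : IsConj (g i : G ⧸ Z) (g j : G ⧸ Z) := ConjClasses.mk_eq_mk_iff_isConj.1 h2
    obtain ⟨x, hx⟩ := isConj_iff.1 h3
    obtain ⟨x, rfl⟩ := QuotientGroup.mk_surjective x
    have h4 : (g j)⁻¹ * (x * g i * x⁻¹) ∈ Z := by
      rw [← QuotientGroup.eq_one_iff, QuotientGroup.mk_mul, QuotientGroup.mk_inv, QuotientGroup.mk_mul,
        QuotientGroup.mk_mul, QuotientGroup.mk_inv, hx, inv_mul_cancel]
    exact hne i j hne' x _ h4 (by rw [mul_inv_cancel_left])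
  have h2 := Nat.card_le_card_of_injective _ h1
  rwa [Nat.card_fin] at h2

variable {p : ℕ} [Fact p.Prime]

/-- **Defect zero over a central character, `p ∥ |G|`**, by the number of characters over `c`. -/
theorem exists_dz_card {Z : Subgroup G} [Z.Normal] (hZ : Z ≤ center G) (hZp : ¬ p ∣ Nat.card Z)
    (hG2 : ¬ p ^ 2 ∣ Nat.card G) {u : G} (hu : orderOf u = p) {k w : ℕ}
    (hC : Nat.card (centralizer ({u} : Set G)) = p * (k * Nat.card Z))
    (hN : Nat.card (normalizer ((zpowers u : Subgroup G) : Set G)) = w * (p * (k * Nat.card Z))) (c : Z →* ℂˣ)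
    {n : ℕ} (hn : n ≤ Nat.card {χ : IrrCharacter G // Lies Z c (χ : G → ℂ)})
    (hlt : k * (w ^ 2 + (p - 1)) < w * n) :
    ∃ χ : IrrCharacter G, Lies Z c (χ : G → ℂ) ∧ p ∣ charDegree (χ : G → ℂ) := by
  classical
  have hp : p.Prime := Fact.out
  have hfin : Finite (IrrCharacter G) := finite_irr
  -- the Sylow subgroup
  have hzp : IsPGroup p (zpowers u) := IsPGroup.of_card (n := 1) (by rw [Nat.card_zpowers, hu, pow_one])
  obtain ⟨P, hPle⟩ := hzp.exists_le_sylow
  have hP : Nat.card P = p := by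
    obtain ⟨n, hn⟩ := (IsPGroup.iff_card).1 P.2
    have h1 : Nat.card P ∣ Nat.card G := card_subgroup_dvd_card _
    have h2 : n < 2 := by
      by_contra h3
      push Not at h3
      exact hG2 ((pow_dvd_pow p h3).trans (hn ▸ h1))
    have h3 : p ∣ Nat.card P := by
      have := card_dvd_of_le hPle
      rwa [Nat.card_zpowers, hu] at this
    interval_cases n
    · rw [hn, pow_zero, Nat.dvd_one] at h3
      exact absurd h3 hp.one_lt.ne'
    · rw [hn, pow_one]
  have hPz : (P : Subgroup G) = zpowers u := by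
    symm
    refine eq_of_le_of_card_ge hPle ?_
    rw [Nat.card_zpowers, hu]
    exact hP.le
  obtain ⟨K, hK⟩ := exists_isComp P hP
  have huP : u ∈ (P : Subgroup G) := hPle (mem_zpowers u)
  have hu1 : u ≠ 1 := by
    rintro rfl
    rw [orderOf_one] at hu
    exact hp.one_lt.ne hu
  have hCP : centralizer ((P : Subgroup G) : Set G) = centralizer ({u} : Set G) :=
    (Blocks.CyclicOrtho.centralizer_eq P hP huP hu1).symm
  have hcC : Nat.card (centralizer ((P : Subgroup G) : Set G)) = p * k * Nat.card Z := by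
    rw [hCP, hC, mul_assoc]
  have hcN : Nat.card (normalizer ((P : Subgroup G) : Set G)) = w * (p * k) * Nat.card Z := by
    rw [hPz, hN]
    ring
  have hcK : Nat.card K = k * Nat.card Z := by
    have h1 : Nat.card P * Nat.card K = Nat.card (centralizer ((P : Subgroup G) : Set G)) := by
      rw [← Nat.card_prod]
      exact Nat.card_congr (prodEquiv hK hP).toEquiv
    rw [hP, hcC, mul_assoc] at h1
    exact Nat.eq_of_mul_eq_mul_left hp.pos h1
  have hZK : Z ≤ K := by
    intro z hz
    rw [hK]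
    refine ⟨?_, fun h => hZp ?_⟩
    · rw [mem_centralizer_iff]
      intro g _
      exact mem_center_iff.1 (hZ hz) g
    · have h1 := _root_.orderOf_dvd_natCard (⟨z, hz⟩ : Z)
      rw [← orderOf_submonoid] at h1
      exact h.trans h1
  have hk0 : 0 < k := by
    rcases Nat.eq_zero_or_pos k with h | h
    · rw [h, zero_mul] at hcK
      exact absurd hcK Nat.card_pos.ne'
    · exact h
  have hw : (centralizer ((P : Subgroup G) : Set G)).relIndex (normalizer ((P : Subgroup G) : Set G)) = w := by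
    have h1 : centralizer ((P : Subgroup G) : Set G) ≤ normalizer ((P : Subgroup G) : Set G) :=
      centralizer_le_normalizer _
    have h2 := Subgroup.card_mul_index ((centralizer ((P : Subgroup G) : Set G)).subgroupOf
      (normalizer ((P : Subgroup G) : Set G)))
    rw [Nat.card_congr (subgroupOfEquivOfLe h1).toEquiv, hcC, hcN] at h2
    have h3 : 0 < p * k * Nat.card Z := Nat.mul_pos (Nat.mul_pos hp.pos hk0) Nat.card_pos
    rw [Subgroup.relIndex]
    apply Nat.eq_of_mul_eq_mul_left h3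
    rw [h2]
    ring
  have hfK : Finite (IrrCharacter K) := finite_irr
  have := Fintype.ofFinite (IrrCharacter K)
  have := Fintype.ofFinite (IrrCharacter G)
  set A : Finset (IrrCharacter K) := univ.filter fun θ => LiesK Z c K (θ : K → ℂ) with hA
  have hAk : A.card ≤ k := card_liesK_le hZ hZK c hcK A fun θ hθ => (mem_filter.1 hθ).2
  have hsum : ∑ θ ∈ A, (Nat.card (stabAct hK (θ : K → ℂ)) ^ 2 + (p - 1)) ≤ k * (w ^ 2 + (p - 1)) := by
    have hw0 : 0 < w := by
      rcases Nat.eq_zero_or_pos w with h | h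
      · rw [h, zero_mul, zero_mul] at hcN
        exact absurd hcN Nat.card_pos.ne'
      · exact h
    calc ∑ θ ∈ A, (Nat.card (stabAct hK (θ : K → ℂ)) ^ 2 + (p - 1)) ≤ ∑ _θ ∈ A, (w ^ 2 + (p - 1)) := by
          refine Finset.sum_le_sum fun θ _ => Nat.add_le_add_right (Nat.pow_le_pow_left ?_ 2) _
          have h1 := card_stabAct_mul_card_orb hK hP θ.2
          rw [hw] at h1
          exact Nat.le_of_dvd hw0 (h1 ▸ dvd_mul_right _ _)
      _ = A.card * (w ^ 2 + (p - 1)) := by rw [Finset.sum_const, smul_eq_mul]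
      _ ≤ k * (w ^ 2 + (p - 1)) := Nat.mul_le_mul_right _ hAk
  obtain ⟨χ, hl, h0⟩ : ∃ χ : IrrCharacter G, Lies Z c (χ : G → ℂ) ∧ ∀ g : G, p ∣ orderOf g → (χ : G → ℂ) g = 0 := by
    by_contra hcon
    push Not at hcon
    have h1 := card_mul_le hK hP hZ hZK hw A (fun θ hθ => mem_filter.2 ⟨mem_univ _, hθ⟩)
      (Finset.univ.filter fun χ : IrrCharacter G => Lies Z c (χ : G → ℂ))
      (fun χ hχ => ⟨(mem_filter.1 hχ).2, by
        obtain ⟨g, hg, hne⟩ := hcon χ (mem_filter.1 hχ).2
        exact ⟨g, hg, hne⟩⟩)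
    rw [Nat.card_eq_fintype_card, Fintype.card_subtype] at hn
    have h3 := Nat.mul_le_mul_left w hn
    omega
  refine ⟨χ, hl, ?_⟩
  obtain ⟨d, hd⟩ := exists_degree_eq (P : Subgroup G) (isIrr_isCharacter χ.2) fun x hx hx1 => h0 x (by
    rw [Blocks.CyclicOrtho.orderOf_eq P hP hx hx1])
  rw [hP] at hd
  refine ⟨d, ?_⟩
  have h1 : ((charDegree (χ : G → ℂ) : ℕ) : ℂ) = ((p * d : ℕ) : ℂ) := by
    obtain ⟨n, hn⟩ := isCharacter_apply_one (isIrr_isCharacter χ.2)
    unfold charDegree
    rw [hn, Complex.natCast_re, Nat.floor_natCast, ← hn, hd]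
    push_cast
    ring
  exact_mod_cast h1

end Cfsg.Agent.H243.RIM
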